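import Cfsg.Agent.CharBasics.ItoConverse
import Cfsg.Agent.Clifford.ExtCriteria
import Cfsg.Agent.Clifford.Correspondence
import Cfsg.Agent.Clifford.Ito
import Mathlib.GroupTheory.FiniteAbelian.Duality

/-!
Groups all of whose character degrees divide a prime `p`: linear characters of an abelian normal subgroup.
-/

set_option autoImplicit false

namespace CfsgLib.DegreeOneP

open Cfsg CfsgLib.CharBasics
open scoped IsMulCommutative

universe u

set_option linter.unusedSectionVars false

variable {G : Type u} [Group G] [Finite G]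

/-- All irreducible degrees divide `p`. -/
def DegDvd (p : ℕ) (G : Type u) [Group G] : Prop :=
  ∀ χ : IrrCharacter G, charDegree (χ : G → ℂ) ∣ p

section

variable (A : Subgroup G) [hA : A.Normal] [hAc : IsMulCommutative A]

/-- `a ↦ a (t a t⁻¹)⁻¹`. -/
noncomputable def delta (t : G) : A →* A :=
  MonoidHom.id A / (MulAut.conjNormal (H := A) t).toMonoidHom

theorem delta_apply (t : G) (a : A) : delta A t a = a * (MulAut.conjNormal (H := A) t a)⁻¹ := by
  simp [delta, div_eq_mul_inv]

theorem delta_eq_one_iff (t : G) (a : A) : delta A t a = 1 ↔ t * a = a * t := by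
  rw [delta_apply, mul_inv_eq_one, Subtype.ext_iff, MulAut.conjNormal_apply, eq_mul_inv_iff_mul_eq]
  exact eq_comm

/-- The character attached to a homomorphism. -/
noncomputable def lin (φ : A →* ℂˣ) : IrrCharacter A :=
  ⟨fun a => ((φ a : ℂˣ) : ℂ), Clifford.isIrrCharacter_of_hom ((Units.coeHom ℂ).comp φ)⟩

theorem lin_apply (φ : A →* ℂˣ) (a : A) : (lin A φ : A → ℂ) a = ((φ a : ℂˣ) : ℂ) := rfl

/-- The inertia subgroup of a linear character. -/
noncomputable def stab (φ : A →* ℂˣ) : Subgroup G := Clifford.inertia (lin A φ : A → ℂ)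

theorem mem_stab {φ : A →* ℂˣ} {t : G} : t ∈ stab A φ ↔ ∀ a : A, φ (delta A t a) = 1 := by
  rw [stab, Clifford.mem_inertia, funext_iff]
  refine forall_congr' fun a => ?_
  rw [Clifford.conjFun_apply, lin_apply, lin_apply, Units.val_inj, delta_apply, map_mul, map_inv, mul_inv_eq_one,
    eq_comm]
  exact Iff.rfl

theorem le_stab (φ : A →* ℂˣ) : A ≤ stab A φ := fun b hb => (mem_stab A).2 fun a => by
  rw [(delta_eq_one_iff A b a).2 (congrArg Subtype.val (mul_comm' (⟨b, hb⟩ : A) a)), map_one]

variable {p : ℕ}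

/-- Orbits of linear characters have length dividing `p`. -/
theorem index_stab_dvd (hD : DegDvd p G) (φ : A →* ℂˣ) : (stab A φ).index ∣ p := by
  obtain ⟨χ, e, -, h, -⟩ := ItoConverse.exists_over A (lin A φ)
  exact (Dvd.intro_left _ rfl).trans ((Dvd.intro _ h.symm).trans (hD χ))

theorem stab_normal [hp : Fact p.Prime] (hD : DegDvd p G) (hG : IsPGroup p G) (φ : A →* ℂˣ) :
    (stab A φ).Normal := by
  rcases (Nat.dvd_prime hp.out).1 (index_stab_dvd A hD φ) with h | h
  · rw [Subgroup.index_eq_one.1 h]; infer_instance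
  · exact Subgroup.normal_of_index_eq_minFac_card (by
      obtain ⟨k, hk⟩ := hG.exists_card_eq
      have hk0 : k ≠ 0 := by
        rintro rfl
        have := (stab A φ).index_dvd_card
        rw [hk, h, pow_zero] at this
        exact hp.out.not_dvd_one this
      rw [h, hk, hp.out.pow_minFac hk0])

/-- If the stabiliser has index `p`, its commutators lie in `A` and are killed. -/
theorem commutator_mem_of_index (hD : DegDvd p G) {φ : A →* ℂˣ}
    (hidx : (stab A φ).index = p) {x y : G} (hx : x ∈ stab A φ) (hy : y ∈ stab A φ) :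
    ∃ h : x * y * x⁻¹ * y⁻¹ ∈ A, φ ⟨_, h⟩ = 1 := by
  classical
  haveI := Fintype.ofFinite G
  haveI := Fintype.ofFinite A
  set T := stab A φ with hT
  haveI := Fintype.ofFinite T
  have hAT : A ≤ T := le_stab A φ
  set θ := lin A φ with hθ
  let E : A.subgroupOf T ≃* A := Subgroup.subgroupOfEquivOfLe hAT
  haveI : Fintype (A.subgroupOf T) := Fintype.ofFinite _
  let θ' : A.subgroupOf T → ℂ := fun m => (θ : A → ℂ) (E m)
  have hθ' : IsIrrCharacter (A.subgroupOf T) θ' :=
    Clifford.isIrrCharacter_comp θ.2 E.toMonoidHom E.surjective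
  obtain ⟨r, f, hf, hdec⟩ := exists_decomp (isCharacter_indFun (A.subgroupOf T) (isCharacter_of_irr hθ'))
  have hlin : ∀ i, f i 1 = 1 := by
    intro i
    have h1 : classInner (fun m : A.subgroupOf T => f i m) θ' ≠ 0 := by
      have h2 : classInner (indFun (A.subgroupOf T) θ') (f i) ≠ 0 := by
        rw [hdec, classInner_sum_left, ← Finset.add_sum_erase _ _ (Finset.mem_univ i), classInner_self (hf i)]
        obtain ⟨j, hj⟩ := classInner_characters_nat
          (CfsgLib.CharBasics.isCharacter_sum (Finset.univ.erase i) f fun j _ => isCharacter_of_irr (hf j))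
          (isCharacter_of_irr (hf i))
        rw [← classInner_sum_left, hj]
        exact_mod_cast (by omega : 1 + j ≠ 0)
      rwa [classInner_indFun (A.subgroupOf T) θ' (isClassFunction (isCharacter_of_irr (hf i))), classInner_comm, Ne,
        map_eq_zero] at h2
    have h3 : classInner (fun n : A => f i ⟨(n : G), hAT n.2⟩) (θ : A → ℂ) ≠ 0 := by
      rw [← Clifford.classInner_comp_equiv E (fun n : A => f i ⟨(n : G), hAT n.2⟩) (θ : A → ℂ)]
      exact h1
    obtain ⟨hirr, -⟩ := Clifford.indFun_inertia_irr θ.2 T rfl hAT (hf i) h3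
    have h4 : charDegree (indFun T (f i)) = p * charDegree (f i) := by
      have := indFun_apply_one T (f i)
      rw [apply_one (isCharacter_of_irr hirr), apply_one (isCharacter_of_irr (hf i)), hidx] at this
      exact_mod_cast this
    have hppos : 0 < p := hidx ▸ Nat.pos_of_ne_zero Subgroup.index_ne_zero_of_finite
    have h5 : p * charDegree (f i) ∣ p * 1 := by rw [← h4, mul_one]; exact hD ⟨_, hirr⟩
    rw [apply_one (isCharacter_of_irr (hf i)), Nat.dvd_one.1 (Nat.dvd_of_mul_dvd_mul_left hppos h5),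
      Nat.cast_one]
  set c : T := ⟨x, hx⟩ * ⟨y, hy⟩ * ⟨x, hx⟩⁻¹ * ⟨y, hy⟩⁻¹ with hc
  have hval : indFun (A.subgroupOf T) θ' c = indFun (A.subgroupOf T) θ' 1 := by
    rw [hdec, Finset.sum_apply, Finset.sum_apply]
    refine Finset.sum_congr rfl fun i _ => ?_
    obtain ⟨μ, hμ⟩ := Clifford.exists_hom_of_linear (isCharacter_of_irr (hf i)) (hlin i)
    rw [hμ]
    simp only [hc, map_mul, map_one]
    have e1 : μ ⟨x, hx⟩ * μ ⟨x, hx⟩⁻¹ = 1 := by rw [← map_mul, mul_inv_cancel, map_one]
    have e2 : μ ⟨y, hy⟩ * μ ⟨y, hy⟩⁻¹ = 1 := by rw [← map_mul, mul_inv_cancel, map_one]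
    linear_combination μ ⟨y, hy⟩ * μ ⟨y, hy⟩⁻¹ * e1 + e2
  have h1 : indFun (A.subgroupOf T) θ' 1 ≠ 0 := by
    rw [indFun_apply_one]
    exact mul_ne_zero (Nat.cast_ne_zero.2 Subgroup.index_ne_zero_of_finite) (apply_one_ne_zero hθ')
  have hcA : (c : G) ∈ A := by
    by_contra hn
    refine h1 (hval ▸ ?_)
    simp only [indFun]
    rw [Finset.sum_eq_zero fun z _ => extendByZero_of_not_mem _ _ ?_, mul_zero]
    rw [Subgroup.mem_subgroupOf]
    intro h
    have h2 := hA.conj_mem _ h (z : G)
    rw [show ((z⁻¹ * c * z : T) : G) = (z : G)⁻¹ * c * z from rfl] at h2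
    exact hn (by simpa [mul_assoc] using h2)
  refine ⟨hcA, ?_⟩
  have hm : c ∈ A.subgroupOf T := Subgroup.mem_subgroupOf.2 hcA
  have h2 := congrFun (Clifford.indFun_restrict_normal (N := A.subgroupOf T) θ') ⟨c, hm⟩
  have h3 := congrFun (Clifford.indFun_restrict_normal (N := A.subgroupOf T) θ') 1
  have hinv : ∀ z : T, Clifford.conjFun z θ' = θ' := fun z => funext fun m =>
    congrFun (Clifford.mem_inertia.1 z.2) (E m)
  simp only [hinv, Finset.sum_const, Pi.smul_apply, Finset.card_univ] at h2 h3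
  change indFun (A.subgroupOf T) θ' c = _ at h2
  change indFun (A.subgroupOf T) θ' 1 = _ at h3
  rw [hval, h3] at h2
  have h4 : θ' ⟨c, hm⟩ = θ' 1 := by
    simp only [nsmul_eq_mul, smul_eq_mul] at h2
    refine (mul_left_cancel₀ ?_ (mul_left_cancel₀ ?_ h2)).symm
    · exact Nat.cast_ne_zero.2 Fintype.card_ne_zero
    · exact inv_ne_zero (Nat.cast_ne_zero.2 Nat.card_pos.ne')
  have h5 : φ (E ⟨c, hm⟩) = φ (E 1) := Units.val_inj.1 h4
  rw [map_one E, map_one] at h5
  exact h5

end

end CfsgLib.DegreeOneP
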