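import Cfsg.Agent.DegreeOneP.Setup
import Cfsg.Agent.PReduced.Hom
import Cfsg.Agent.ClassSize.PPowerIndex
import Cfsg.Agent.CharBasics.Ortho

/-!
A `p`-group whose character degrees divide `p` has an abelian subgroup of index `p` or centre of index dividing `p^3`.
-/

set_option autoImplicit false
set_option linter.unusedSectionVars false

namespace CfsgLib.DegreeOneP

open Cfsg CfsgLib.CharBasics
open scoped IsMulCommutative

universe u

variable {G : Type u} [Group G] [Finite G]

section

variable (A : Subgroup G) [hA : A.Normal] [hAc : IsMulCommutative A]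

theorem exists_hom_ne_one {a : A} (ha : a ≠ 1) : ∃ φ : A →* ℂˣ, φ a ≠ 1 := by
  haveI : NeZero (Monoid.exponent A) := ⟨Monoid.ExponentExists.exponent_ne_zero Monoid.ExponentExists.of_finite⟩
  exact CommGroup.exists_apply_ne_one_of_hasEnoughRootsOfUnity A ℂ ha

/-- The number of linear characters killing `D`. -/
theorem card_annihilator (D : Subgroup A) : Nat.card {φ : A →* ℂˣ // D ≤ φ.ker} = D.index := by
  haveI : NeZero (Monoid.exponent (A ⧸ D)) := ⟨Monoid.ExponentExists.exponent_ne_zero Monoid.ExponentExists.of_finite⟩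
  rw [Subgroup.index, ← CommGroup.card_monoidHom_of_hasEnoughRootsOfUnity (A ⧸ D) ℂ]
  exact Nat.card_congr
    { toFun := fun φ => QuotientGroup.lift D φ.1 φ.2
      invFun := fun ψ => ⟨ψ.comp (QuotientGroup.mk' D), fun d hd => by
        rw [MonoidHom.mem_ker, MonoidHom.comp_apply, QuotientGroup.mk'_apply, (QuotientGroup.eq_one_iff d).2 hd,
          map_one]⟩
      left_inv := fun φ => Subtype.ext (MonoidHom.ext fun a => rfl)
      right_inv := fun ψ => MonoidHom.ext fun q => by
        induction q using QuotientGroup.induction_on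
        rfl }

theorem range_le_ker_iff (t : G) (φ : A →* ℂˣ) : (delta A t).range ≤ φ.ker ↔ t ∈ stab A φ := by
  rw [mem_stab]
  refine ⟨fun h a => h ⟨a, rfl⟩, ?_⟩
  rintro h _ ⟨a, rfl⟩
  exact h a

theorem delta_mul (s t : G) (a : A) :
    delta A (s * t) a = delta A s a * MulAut.conjNormal (H := A) s (delta A t a) := by
  simp only [delta_apply, map_mul, map_inv, MulAut.mul_apply]
  group

theorem delta_self {b : G} (hb : b ∈ A) : delta A b = 1 :=
  MonoidHom.ext fun a => (delta_eq_one_iff A b a).2 (congrArg Subtype.val (mul_comm' (⟨b, hb⟩ : A) a))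

theorem conjNormal_self {b : G} (hb : b ∈ A) (a : A) : MulAut.conjNormal (H := A) b a = a := by
  have h := delta_apply A b a
  rw [delta_self A hb, MonoidHom.one_apply, eq_comm, mul_inv_eq_one] at h
  exact h.symm

theorem range_delta_mul_left {b : G} (hb : b ∈ A) (t : G) : (delta A (b * t)).range = (delta A t).range := by
  congr 1
  ext a
  rw [delta_mul, delta_self A hb, conjNormal_self A hb, MonoidHom.one_apply, one_mul]

theorem conj_range (hab : ∀ x y : G, x * y * x⁻¹ * y⁻¹ ∈ A) (s t : G) :
    (delta A t).range.map (MulAut.conjNormal (H := A) s).toMonoidHom = (delta A t).range := by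
  have key : ∀ a, MulAut.conjNormal (H := A) s (delta A t a) =
      delta A (s * t * s⁻¹) (MulAut.conjNormal (H := A) s a) := by
    intro a
    simp only [delta_apply, map_mul, map_inv, MulAut.mul_apply, MulEquiv.apply_symm_apply]
    congr 2
    apply Subtype.ext
    simp [mul_assoc]
  have hst : (delta A (s * t * s⁻¹)).range = (delta A t).range := by
    rw [show s * t * s⁻¹ = (s * t * s⁻¹ * t⁻¹) * t by group, range_delta_mul_left A (hab s t)]
  conv_rhs => rw [← hst]
  ext x
  constructor
  · rintro ⟨_, ⟨a, rfl⟩, rfl⟩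
    exact ⟨_, (key _).symm⟩
  · rintro ⟨a, rfl⟩
    refine ⟨delta A t ((MulAut.conjNormal (H := A) s).symm a), ⟨(MulAut.conjNormal (H := A) s).symm a, rfl⟩, ?_⟩
    show MulAut.conjNormal (H := A) s _ = _
    rw [key, MulEquiv.apply_symm_apply]

end

theorem exists_abelian_index_of_center_index_dvd {p : ℕ} [hp : Fact p.Prime] (hG : IsPGroup p G)
    (h : (Subgroup.center G).index ∣ p ^ 3) :
    IsMulCommutative G ∨ (∃ A : Subgroup G, A.Normal ∧ IsMulCommutative A ∧ A.index = p) ∨
      (Subgroup.center G).index = p ^ 3 := by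
  classical
  obtain ⟨i, hi3, hi⟩ := (Nat.dvd_prime_pow hp.out).1 h
  have hcyc : ∀ H : Subgroup G, Subgroup.center G ≤ H → (Subgroup.center G).relIndex H ∣ p → IsMulCommutative H := by
    intro H hH hd
    refine ⟨⟨fun a b => ?_⟩⟩
    haveI : IsCyclic (H ⧸ (Subgroup.center G).subgroupOf H) := by
      rcases (Nat.dvd_prime hp.out).1 hd with h1 | h1
      · haveI : Subsingleton (H ⧸ (Subgroup.center G).subgroupOf H) := (Nat.card_eq_one_iff_unique.1 h1).1
        infer_instance
      · exact isCyclic_of_prime_card (p := p) h1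
    exact commutative_of_cyclic_center_quotient (QuotientGroup.mk' ((Subgroup.center G).subgroupOf H)) (by
      intro x hx
      rw [QuotientGroup.ker_mk', Subgroup.mem_subgroupOf] at hx
      exact Subgroup.mem_center_iff.2 fun y => Subtype.ext (Subgroup.mem_center_iff.1 hx y)) a b
  rcases Nat.lt_or_ge i 2 with hi2 | hi2
  · left
    have := hcyc ⊤ le_top (by rw [Subgroup.relIndex_top_right, hi]; exact pow_dvd_pow p (Nat.le_of_lt_succ hi2) |>.trans (pow_one p).dvd)
    exact ⟨⟨fun a b => congrArg Subtype.val (this.is_comm.comm (⟨a, trivial⟩ : (⊤ : Subgroup G)) ⟨b, trivial⟩)⟩⟩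
  rcases Nat.eq_or_lt_of_le hi2 with hi2 | hi2
  · right; left
    obtain ⟨n, hn⟩ := hG.exists_card_eq
    obtain ⟨x, hx⟩ := exists_prime_orderOf_dvd_card' (G := G ⧸ Subgroup.center G) p (by
      rw [← Subgroup.index_eq_card, hi]; exact dvd_pow_self p (by omega))
    set A := (Subgroup.zpowers x).comap (QuotientGroup.mk' (Subgroup.center G)) with hA
    have hle : Subgroup.center G ≤ A := fun z hz => by
      rw [hA, Subgroup.mem_comap, QuotientGroup.mk'_apply, (QuotientGroup.eq_one_iff z).2 hz]
      exact Subgroup.one_mem _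
    have hAi : A.index = p := by
      have h1 := (Subgroup.zpowers x).index_mul_card
      rw [Nat.card_zpowers, hx, ← Subgroup.index_eq_card, hi, ← hi2, sq] at h1
      rw [hA, Subgroup.index_comap_of_surjective _ (QuotientGroup.mk'_surjective _)]
      exact Nat.eq_of_mul_eq_mul_right hp.out.pos h1
    refine ⟨A, ?_, hcyc A hle ?_, hAi⟩
    · refine Subgroup.normal_of_index_eq_minFac_card ?_
      rcases Nat.eq_zero_or_pos n with rfl | hn0
      · exfalso
        have := A.index_dvd_card
        rw [hn, hAi, pow_zero] at this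
        exact hp.out.not_dvd_one this
      · rw [hAi, hn, hp.out.pow_minFac hn0.ne']
    · have h1 := Subgroup.relIndex_mul_index hle
      rw [hi, hAi, ← hi2, sq] at h1
      exact (Nat.eq_of_mul_eq_mul_right hp.out.pos h1).dvd
  · right; right
    rw [hi, show i = 3 by omega]

section

variable {p : ℕ} [hp : Fact p.Prime]

theorem count_bound (A : Subgroup G) [hA : A.Normal] [IsMulCommutative A] (hD : DegDvd p G) (hG : IsPGroup p G)
    (hidx : A.index = p ^ 2) [Fintype (G ⧸ A)] [DecidableEq (G ⧸ A)] (D : Subgroup A)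
    (hDall : ∀ t, (delta A t).range ≤ D) :
    (p - 1) * Nat.card A + (p ^ 2 - p) * D.index ≤
      ∑ q ∈ (Finset.univ : Finset (G ⧸ A)).erase 1, (delta A (Quotient.out q)).range.index := by
  classical
  haveI : Finite (A →* ℂˣ) := .of_equiv _ (CommGroup.monoidHom_mulEquiv_of_hasEnoughRootsOfUnity A ℂ).some.symm.toEquiv
  haveI := Fintype.ofFinite (A →* ℂˣ)
  have hmem : ∀ (φ : A →* ℂˣ) (g : G), g ∈ stab A φ ↔ (QuotientGroup.mk' A g) ∈ (stab A φ).map (QuotientGroup.mk' A) := by
    intro φ g
    rw [← Subgroup.mem_comap, Subgroup.comap_map_eq_self]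
    rw [QuotientGroup.ker_mk']
    exact le_stab A φ
  have e1 : ∑ q : G ⧸ A, (delta A (Quotient.out q)).range.index =
      ∑ φ : A →* ℂˣ, Nat.card ((stab A φ).map (QuotientGroup.mk' A)) := by
    have h1 : ∀ q : G ⧸ A, (delta A (Quotient.out q)).range.index =
        ∑ φ : A →* ℂˣ, if q ∈ (stab A φ).map (QuotientGroup.mk' A) then 1 else 0 := fun q => by
      rw [Finset.sum_boole, Nat.cast_id, ← card_annihilator A, Nat.card_eq_fintype_card, Fintype.card_subtype]
      congr 1
      refine Finset.filter_congr fun φ _ => ?_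
      rw [range_le_ker_iff, hmem, QuotientGroup.mk'_apply, QuotientGroup.out_eq']
    simp only [h1]
    rw [Finset.sum_comm]
    refine Finset.sum_congr rfl fun φ _ => ?_
    rw [Finset.sum_boole, Nat.cast_id, Nat.card_eq_fintype_card, Fintype.card_subtype]
  have hlow : ∀ φ : A →* ℂˣ, p + (if D ≤ φ.ker then p ^ 2 - p else 0) ≤
      Nat.card ((stab A φ).map (QuotientGroup.mk' A)) := by
    intro φ
    set S := (stab A φ).map (QuotientGroup.mk' A) with hS
    have hc := S.card_mul_index
    rw [← Subgroup.index_eq_card, hidx,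
      hS, Subgroup.index_map_eq _ (QuotientGroup.mk'_surjective A) (by rw [QuotientGroup.ker_mk']; exact le_stab A φ), ← hS] at hc
    have hd := index_stab_dvd A hD φ
    have h2 : p ≤ p ^ 2 := Nat.le_self_pow two_ne_zero p
    split_ifs with h
    · have : (stab A φ).index = 1 := by
        rw [Subgroup.index_eq_one, eq_top_iff]
        exact fun t _ => (range_le_ker_iff A t φ).1 ((hDall t).trans h)
      rw [this, mul_one] at hc
      omega
    · rcases (Nat.dvd_prime hp.out).1 hd with h1 | h1 <;> rw [h1] at hc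
      · omega
      · rw [sq] at hc
        have := Nat.eq_of_mul_eq_mul_right hp.out.pos hc
        omega
  have e2 : Nat.card (A →* ℂˣ) * p + (p ^ 2 - p) * D.index ≤ ∑ q : G ⧸ A, (delta A (Quotient.out q)).range.index := by
    rw [e1]
    refine le_trans (le_of_eq ?_) (Finset.sum_le_sum fun φ _ => hlow φ)
    rw [Finset.sum_add_distrib, Finset.sum_const, Finset.card_univ, smul_eq_mul, ← Finset.sum_filter,
      Finset.sum_const, smul_eq_mul, ← card_annihilator A D, Nat.card_eq_fintype_card, Nat.card_eq_fintype_card,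
      Fintype.card_subtype, mul_comm (p ^ 2 - p)]
  have h0 : (delta A (Quotient.out (1 : G ⧸ A))).range.index = Nat.card A := by
    rw [delta_self A ((QuotientGroup.eq_one_iff _).1 (QuotientGroup.out_eq' (1 : G ⧸ A))), MonoidHom.range_one,
      Subgroup.index_bot]
  rw [CommGroup.card_monoidHom_of_hasEnoughRootsOfUnity, ← Finset.add_sum_erase _ _ (Finset.mem_univ (1 : G ⧸ A)),
    h0] at e2
  rw [Nat.sub_one_mul, mul_comm p]
  have := Nat.le_mul_of_pos_right (Nat.card A) hp.out.pos
  omega

set_option maxHeartbeats 1000000 in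
/-- An abelian normal subgroup of index `p^2`. -/
theorem goal_of_abelian_index_sq (A : Subgroup G) [hA : A.Normal] [hAc : IsMulCommutative A] (hD : DegDvd p G)
    (hG : IsPGroup p G) (hidx : A.index = p ^ 2) :
    IsMulCommutative G ∨ (∃ A : Subgroup G, A.Normal ∧ IsMulCommutative A ∧ A.index = p) ∨
      (Subgroup.center G).index = p ^ 3 := by
  classical
  by_contra hgoal
  simp only [not_or] at hgoal
  obtain ⟨hnc, hnoA, hnZ⟩ := hgoal
  haveI := Fintype.ofFinite (G ⧸ A)
  have hp2 := hp.out.two_le
  have hQ : Nat.card (G ⧸ A) = p ^ 2 := by rw [← Subgroup.index_eq_card, hidx]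
  have hQab : ∀ u v : G ⧸ A, u * v = v * u := fun u v => (IsPGroup.isMulCommutative_of_card_eq_prime_sq hQ).is_comm.comm u v
  have hab : ∀ x y : G, x * y * x⁻¹ * y⁻¹ ∈ A := fun x y => by
    rw [← QuotientGroup.eq_one_iff, QuotientGroup.mk_mul, QuotientGroup.mk_mul, QuotientGroup.mk_mul,
      hQab (x : G ⧸ A) y, QuotientGroup.mk_inv, QuotientGroup.mk_inv]
    group
  -- every `t ∉ A` acts nontrivially
  have hfaith : ∀ t, t ∉ A → (delta A t).range ≠ ⊥ := by
    intro t ht h
    rw [MonoidHom.range_eq_bot_iff] at h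
    have hcomm : ∀ a ∈ A, t * a = a * t := fun a ha => (delta_eq_one_iff A t ⟨a, ha⟩).1 (by rw [h]; rfl)
    set B := A ⊔ Subgroup.zpowers t with hB
    have hBc : IsMulCommutative B := by
      rw [hB, show A ⊔ Subgroup.zpowers t = Subgroup.closure ((A : Set G) ∪ {t}) by
        rw [Subgroup.closure_union, Subgroup.closure_eq, Subgroup.zpowers_eq_closure]]
      refine Subgroup.isMulCommutative_closure ?_
      intro x hx y hy
      rcases hx with hx | hx <;> rcases hy with hy | hy
      · exact congrArg Subtype.val (mul_comm' (⟨x, hx⟩ : A) ⟨y, hy⟩)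
      · rw [Set.mem_singleton_iff.1 hy]; exact (hcomm x hx).symm
      · rw [Set.mem_singleton_iff.1 hx]; exact hcomm y hy
      · rw [Set.mem_singleton_iff.1 hx, Set.mem_singleton_iff.1 hy]
    have hlt : A < B := lt_of_le_of_ne le_sup_left fun h => ht (h ▸ Subgroup.mem_sup_right (Subgroup.mem_zpowers t))
    have hlt2 := Subgroup.index_strictAnti hlt
    obtain ⟨i, -, hi⟩ := (Nat.dvd_prime_pow hp.out).1 (hidx ▸ Subgroup.index_dvd_of_le hlt.le)
    rw [hidx, hi, Nat.pow_lt_pow_iff_right hp.out.one_lt] at hlt2
    interval_cases i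
    · rw [pow_zero, Subgroup.index_eq_one] at hi
      exact hnc ⟨⟨fun a b => congrArg Subtype.val (hBc.is_comm.comm (⟨a, hi ▸ trivial⟩ : B) ⟨b, hi ▸ trivial⟩)⟩⟩
    · refine hnoA ⟨B, ?_, hBc, hi.trans (pow_one p)⟩
      refine ⟨fun x hx g => ?_⟩
      rw [show g * x * g⁻¹ = g * x * g⁻¹ * x⁻¹ * x by group]
      exact mul_mem (hlt.le (hab g x)) hx
  set D : Subgroup A := ⨆ t : G, (delta A t).range with hDdef
  have hDall : ∀ t, (delta A t).range ≤ D := fun t => le_iSup (fun t => (delta A t).range) t
  obtain ⟨c, hc⟩ := hG.exists_card_eq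
  have hpow : ∀ H : Subgroup A, ∃ k, Nat.card H = p ^ k := fun H => ((hG.to_subgroup A).to_subgroup H).exists_card_eq
  have hub : ∀ q : G ⧸ A, q ≠ 1 → p * (delta A (Quotient.out q)).range.index ≤ Nat.card A := fun q hq => by
    rw [← (delta A (Quotient.out q)).range.card_mul_index]
    refine Nat.mul_le_mul_right _ ?_
    obtain ⟨k, hk⟩ := hpow (delta A (Quotient.out q)).range
    rw [hk]
    refine Nat.le_self_pow ?_ p
    rintro rfl
    refine hfaith _ (fun hm => hq ?_) (Subgroup.card_eq_one.1 (by rw [hk, pow_zero]))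
    rw [← QuotientGroup.out_eq' q, QuotientGroup.eq_one_iff]
    exact hm
  have hcb := count_bound A hD hG hidx D hDall
  have hcardE : ((Finset.univ : Finset (G ⧸ A)).erase 1).card = p ^ 2 - 1 := by
    rw [Finset.card_erase_of_mem (Finset.mem_univ _), Finset.card_univ, ← Nat.card_eq_fintype_card, hQ]
  have hApos : 0 < Nat.card A := Nat.card_pos
  have hDpos : 0 < D.index := Nat.pos_of_ne_zero Subgroup.index_ne_zero_of_finite
  -- some image has order `p`
  obtain ⟨q₀, hq₀, hs⟩ : ∃ q : G ⧸ A, q ≠ 1 ∧ Nat.card (delta A (Quotient.out q)).range = p := by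
    by_contra hall
    push Not at hall
    have h2 : ∀ q ∈ (Finset.univ : Finset (G ⧸ A)).erase 1, p ^ 2 * (delta A (Quotient.out q)).range.index ≤ Nat.card A := by
      intro q hq
      have hq1 := (Finset.mem_erase.1 hq).1
      rw [← (delta A (Quotient.out q)).range.card_mul_index]
      refine Nat.mul_le_mul_right _ ?_
      obtain ⟨k, hk⟩ := hpow (delta A (Quotient.out q)).range
      rw [hk]
      refine Nat.pow_le_pow_right hp.out.pos ?_
      by_contra hk2
      interval_cases k
      · have := hub q hq1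
        rw [← (delta A (Quotient.out q)).range.card_mul_index, hk, pow_zero, one_mul] at this
        nlinarith [Nat.pos_of_ne_zero (Subgroup.index_ne_zero_of_finite (H := (delta A (Quotient.out q)).range))]
      · exact hall q hq1 (by rw [hk, pow_one])
    have h3 := Finset.sum_le_sum h2
    rw [← Finset.mul_sum, Finset.sum_const, hcardE, smul_eq_mul] at h3
    have h4 : p ^ 2 * ((p - 1) * Nat.card A) < p ^ 2 * ((p-1) * Nat.card A + (p ^ 2 - p) * D.index) := by
      have : 0 < p ^ 2 - p := by rw [sq]; exact Nat.sub_pos_of_lt (by nlinarith)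
      have : 0 < (p ^ 2 - p) * D.index := Nat.mul_pos this hDpos
      exact Nat.mul_lt_mul_of_pos_left (Nat.lt_add_of_pos_right this) (by positivity)
    have h5 : (p ^ 2 - 1) * Nat.card A ≤ p ^ 2 * ((p - 1) * Nat.card A) := by
      rw [← mul_assoc]
      refine Nat.mul_le_mul_right _ ((Nat.sub_le _ _).trans ?_)
      exact Nat.le_mul_of_pos_right _ (by omega)
    have := Nat.mul_le_mul_left (p ^ 2) hcb
    omega
  set s := Quotient.out q₀ with hsdef
  have hsq : ((s : G) : G ⧸ A) = q₀ := QuotientGroup.out_eq' q₀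
  have hZs : Nat.card (Subgroup.zpowers q₀) = p ∨ Subgroup.zpowers q₀ = ⊤ := by
    obtain ⟨i, hi2, hi⟩ := (Nat.dvd_prime_pow hp.out).1 (hQ ▸ (Subgroup.zpowers q₀).card_subgroup_dvd_card)
    interval_cases i
    · exact absurd (Subgroup.zpowers_eq_bot.1 (Subgroup.card_eq_one.1 (by rw [hi, pow_zero]))) hq₀
    · exact Or.inl (by rw [hi, pow_one])
    · exact Or.inr (Subgroup.eq_top_of_card_eq _ (by rw [hi, hQ]))
  -- subgroups generated by `s` and another element
  have hspan : ∀ (t : G) (E : Subgroup A), (delta A s).range ≤ E → (delta A t).range ≤ E →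
      (∀ g : G, E.map (MulAut.conjNormal (H := A) g).toMonoidHom ≤ E) →
      (QuotientGroup.mk' A t) ∉ Subgroup.zpowers q₀ ∨ Subgroup.zpowers q₀ = ⊤ → D ≤ E := by
    intro t E hsE htE hinvE hgen
    let H : Subgroup G :=
      { carrier := {g | (delta A g).range ≤ E}
        one_mem' := by
          show (delta A 1).range ≤ E
          rw [delta_self A A.one_mem, MonoidHom.range_one]; exact bot_le
        mul_mem' := fun {g h} hg hh => by
          rintro _ ⟨a, rfl⟩
          rw [delta_mul]
          exact mul_mem (hg ⟨a, rfl⟩) (hinvE g ⟨_, hh ⟨a, rfl⟩, rfl⟩)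
        inv_mem' := fun {g} hg => by
          rintro _ ⟨a, rfl⟩
          have h := delta_mul A g⁻¹ g a
          rw [inv_mul_cancel, delta_self A A.one_mem, MonoidHom.one_apply, eq_comm, mul_eq_one_iff_eq_inv] at h
          rw [h]
          exact inv_mem (hinvE g⁻¹ ⟨_, hg ⟨a, rfl⟩, rfl⟩) }
    have hAH : A ≤ H := fun b hb => by
      show (delta A b).range ≤ E
      rw [delta_self A hb, MonoidHom.range_one]; exact bot_le
    have hz : Subgroup.zpowers q₀ ≤ H.map (QuotientGroup.mk' A) :=
      Subgroup.zpowers_le.2 ⟨s, hsE, hsq⟩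
    have htop : H.map (QuotientGroup.mk' A) = ⊤ := by
      rcases hgen with hgen | hgen
      · rcases hZs with h | h
        · have hlt : Subgroup.zpowers q₀ < H.map (QuotientGroup.mk' A) :=
            lt_of_le_of_ne hz fun he => hgen (he ▸ Subgroup.mem_map_of_mem _ htE)
          have h1 := Subgroup.card_subgroup_dvd_card (H.map (QuotientGroup.mk' A))
          rw [hQ] at h1
          obtain ⟨i, hi2, hi⟩ := (Nat.dvd_prime_pow hp.out).1 h1
          have h2 := Set.Finite.card_lt_card (Set.toFinite _) hlt
          apply Subgroup.eq_top_of_card_eq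
          rw [hQ, hi]
          change Nat.card (Subgroup.zpowers q₀) < Nat.card (H.map (QuotientGroup.mk' A)) at h2
          rw [h, hi] at h2
          interval_cases i
          · rw [pow_zero] at h2; omega
          · rw [pow_one] at h2; omega
          · rfl
        · exact top_unique (h ▸ hz)
      · exact top_unique (hgen ▸ hz)
    refine iSup_le fun g => ?_
    obtain ⟨g', hg', he⟩ := htop ▸ Subgroup.mem_top (QuotientGroup.mk' A g)
    have hgA : g * g'⁻¹ ∈ A := by
      rw [← QuotientGroup.eq_one_iff, QuotientGroup.mk_mul, QuotientGroup.mk_inv]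
      rw [QuotientGroup.mk'_apply, QuotientGroup.mk'_apply] at he
      rw [he, mul_inv_cancel]
    rw [show g = (g * g'⁻¹) * g' by group, range_delta_mul_left A hgA]
    exact hg'
  have hinv1 : ∀ (r g : G), (delta A r).range.map (MulAut.conjNormal (H := A) g).toMonoidHom ≤ (delta A r).range :=
    fun r g => (conj_range A hab g r).le
  -- the whole commutator has order `p^2`
  have hDle : ∀ t : G, (QuotientGroup.mk' A t) ∉ Subgroup.zpowers q₀ →
      Nat.card D ≤ p * Nat.card (delta A t).range := by
    intro t ht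
    have h1 := hspan t ((delta A s).range ⊔ (delta A t).range) le_sup_left le_sup_right (fun g => by
      rw [Subgroup.map_sup]; exact sup_le_sup (hinv1 s g) (hinv1 t g)) (Or.inl ht)
    have h2 := PCore.card_sup_dvd (delta A t).range (delta A s).range
    rw [hs] at h2
    exact (Subgroup.card_le_of_le h1).trans (Nat.le_of_dvd (Nat.mul_pos hp.out.pos Nat.card_pos) h2)
  rcases hZs with hZs | hZs
  swap
  · -- cyclic quotient
    have h1 := hspan 1 (delta A s).range le_rfl (by rw [delta_self A A.one_mem, MonoidHom.range_one]; exact bot_le)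
      (hinv1 s) (Or.inr hZs)
    have h2 : ∀ q ∈ (Finset.univ : Finset (G ⧸ A)).erase 1, (delta A (Quotient.out q)).range.index = D.index := by
      intro q hq
      have he : (delta A (Quotient.out q)).range = D := by
        refine Subgroup.eq_of_le_of_card_ge (hDall _) ?_
        have hq1 := hub q (Finset.mem_erase.1 hq).1
        rw [← (delta A (Quotient.out q)).range.card_mul_index] at hq1
        calc Nat.card D ≤ p := (Subgroup.card_le_of_le h1).trans hs.le
          _ ≤ Nat.card (delta A (Quotient.out q)).range :=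
            Nat.le_of_mul_le_mul_right hq1 (Nat.pos_of_ne_zero Subgroup.index_ne_zero_of_finite)
      rw [he]
    rw [Finset.sum_congr rfl h2, Finset.sum_const, hcardE, smul_eq_mul] at hcb
    have hAd : Nat.card A = p * D.index := by
      rw [← D.card_mul_index, show D = (delta A s).range from le_antisymm h1 (hDall s), hs]
    rw [hAd] at hcb
    obtain ⟨r, rfl⟩ := Nat.exists_eq_add_of_le hp2
    simp only [show 2 + r - 1 = r + 1 by omega, show (2 + r) ^ 2 - (2 + r) = r * r + 3 * r + 2 by ring_nf; omega,
      show (2 + r) ^ 2 - 1 = r * r + 4 * r + 3 by ring_nf; omega] at hcb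
    nlinarith [Nat.mul_pos hDpos hDpos]
  obtain ⟨k, hk⟩ := hpow D
  have hAd : Nat.card A = p ^ k * D.index := by rw [← D.card_mul_index, hk]
  have hk1 : 1 ≤ k := by
    by_contra hk0
    have h := Subgroup.card_le_of_le (hDall s)
    rw [hs, hk, show k = 0 by omega, pow_zero] at h
    omega
  let In : Finset (G ⧸ A) := Finset.univ.filter (· ∈ Subgroup.zpowers q₀)
  have hsplit : (Finset.univ : Finset (G ⧸ A)).erase 1 = In.erase 1 ∪ Inᶜ := by
    ext x
    simp only [Finset.mem_erase, Finset.mem_univ, and_true, Finset.mem_union, Finset.mem_compl, In, Finset.mem_filter,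
      true_and]
    refine ⟨fun h => ?_, ?_⟩
    · by_cases hx : x ∈ Subgroup.zpowers q₀
      · exact Or.inl ⟨h, hx⟩
      · exact Or.inr hx
    · rintro (⟨h, -⟩ | h)
      · exact h
      · rintro rfl; exact h (Subgroup.one_mem _)
  have hdisj : Disjoint (In.erase 1) Inᶜ :=
    Finset.disjoint_of_subset_left (Finset.erase_subset _ _) (Finset.disjoint_right.2 fun x hx hx' => Finset.mem_compl.1 hx hx')
  have hIn : In.card = p := by
    rw [← hZs, Nat.card_eq_fintype_card, Fintype.card_subtype]
  have hInE : (In.erase 1).card = p - 1 := by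
    rw [Finset.card_erase_of_mem (by simp [In]), hIn]
  have hOut : Inᶜ.card = p ^ 2 - p := by
    rw [Finset.card_compl, hIn, ← Nat.card_eq_fintype_card, hQ]
  rw [hsplit, Finset.sum_union hdisj] at hcb
  have hA1 : p * ∑ q ∈ In.erase 1, (delta A (Quotient.out q)).range.index ≤ (p - 1) * Nat.card A := by
    rw [Finset.mul_sum]
    exact (Finset.sum_le_sum fun q hq => hub q (Finset.mem_erase.1 hq).1).trans
      (by rw [Finset.sum_const, hInE, smul_eq_mul])
  have hout : ∀ q ∈ Inᶜ, (delta A (Quotient.out q)).range.index ≤ p * D.index := by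
    intro q hq
    have hq' : (QuotientGroup.mk' A (Quotient.out q)) ∉ Subgroup.zpowers q₀ := by
      rw [QuotientGroup.mk'_apply, QuotientGroup.out_eq']
      simpa [In] using hq
    have h1 := hDle _ hq'
    have h2 := (delta A (Quotient.out q)).range.card_mul_index
    rw [← D.card_mul_index] at h2
    have h3 : Nat.card (delta A (Quotient.out q)).range * (delta A (Quotient.out q)).range.index ≤
        Nat.card (delta A (Quotient.out q)).range * (p * D.index) := by
      rw [h2]
      calc Nat.card D * D.index ≤ p * Nat.card (delta A (Quotient.out q)).range * D.index := Nat.mul_le_mul_right _ h1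
        _ = _ := by ring
    exact Nat.le_of_mul_le_mul_left h3 Nat.card_pos
  -- `k = 2`
  have hA2 : ∑ q ∈ Inᶜ, (delta A (Quotient.out q)).range.index ≤ (p ^ 2 - p) * (p * D.index) := by
    refine (Finset.sum_le_sum hout).trans ?_
    rw [Finset.sum_const, hOut, smul_eq_mul]
  have hk2 : k = 2 := by
    rw [hAd] at hcb hA1
    obtain ⟨r, hr⟩ := Nat.exists_eq_add_of_le hp2
    subst hr
    simp only [show 2 + r - 1 = r + 1 by omega, show (2 + r) ^ 2 - (2 + r) = r * r + 3 * r + 2 by ring_nf; omega] at hcb hA1 hA2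
    set X := (2 + r) ^ k with hX
    set S1 := ∑ q ∈ In.erase 1, (delta A (Quotient.out q)).range.index
    set S2 := ∑ q ∈ Inᶜ, (delta A (Quotient.out q)).range.index
    set i := D.index
    have hXle : X ≤ (2 + r) ^ 2 := by
      have e : (r + 1) * (r + 1) * (X * i) ≤ (r + 1) * (r + 1) * ((2 + r) ^ 2 * i) := by nlinarith
      exact Nat.le_of_mul_le_mul_right (Nat.le_of_mul_le_mul_left e (by positivity)) hDpos
    rw [hX, Nat.pow_le_pow_iff_right (by omega)] at hXle
    rcases Nat.eq_or_lt_of_le hXle with h | h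
    · exact h
    · exfalso
      have hk1' : k = 1 := by omega
      rw [hX, hk1', pow_one] at hcb hA1
      have hS2 : S2 ≤ (r * r + 3 * r + 2) * i := by
        refine (Finset.sum_le_sum fun q hq => ?_).trans (by rw [Finset.sum_const, hOut, smul_eq_mul,
          show (2 + r) ^ 2 - (2 + r) = r * r + 3 * r + 2 by ring_nf; omega])
        have h1 := hub q fun h => by simp [In, h] at hq
        rw [hAd, hX, hk1', pow_one] at h1
        exact Nat.le_of_mul_le_mul_left h1 (by omega)
      have hS1 : S1 ≤ (r + 1) * i := Nat.le_of_mul_le_mul_left (hA1.trans_eq (show _ = (2 + r) * ((r + 1) * i) by ring)) (by omega)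
      have e : (r + 1) * ((2 + r) * i) = (r + 1) * i + (r + 1) * ((r + 1) * i) := by ring
      have : 0 < (r + 1) * ((r + 1) * i) := by positivity
      omega
  subst hk2
  have hall : ∀ t, (QuotientGroup.mk' A t) ∉ Subgroup.zpowers q₀ → Nat.card (delta A t).range = p := by
    intro t ht
    set q := QuotientGroup.mk' A t with hqdef
    have hrt : (delta A t).range = (delta A (Quotient.out q)).range := by
      obtain ⟨b, hb⟩ : ∃ b ∈ A, t = b * Quotient.out q := ⟨t * (Quotient.out q)⁻¹, by
        rw [← QuotientGroup.eq_one_iff, QuotientGroup.mk_mul, QuotientGroup.mk_inv, QuotientGroup.out_eq', hqdef,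
          QuotientGroup.mk'_apply, mul_inv_cancel], by group⟩
      rw [hb.2, range_delta_mul_left A hb.1]
    by_contra hne
    have hsmall : (delta A (Quotient.out q)).range.index ≤ D.index := by
      obtain ⟨j, hj⟩ := hpow (delta A t).range
      have h1 : Nat.card D ≤ Nat.card (delta A t).range := by
        rw [hk, hj]
        refine Nat.pow_le_pow_right hp.out.pos ?_
        by_contra hj2
        interval_cases j
        · refine hfaith t (fun hm => ht ?_) (Subgroup.card_eq_one.1 (by rw [hj, pow_zero]))
          rw [hqdef, QuotientGroup.mk'_apply, (QuotientGroup.eq_one_iff t).2 hm]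
          exact Subgroup.one_mem _
        · exact hne (by rw [hj, pow_one])
      rw [← hrt, Subgroup.eq_of_le_of_card_ge (hDall t) h1]
    have hqmem : q ∈ Inᶜ := by simpa [In] using ht
    rw [← Finset.add_sum_erase _ _ hqmem] at hcb
    have hA2' : ∑ q ∈ Inᶜ.erase q, (delta A (Quotient.out q)).range.index ≤ (p ^ 2 - p - 1) * (p * D.index) := by
      refine (Finset.sum_le_sum fun q hq => hout q (Finset.mem_of_mem_erase hq)).trans ?_
      rw [Finset.sum_const, Finset.card_erase_of_mem hqmem, hOut, smul_eq_mul]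
    rw [hAd] at hcb hA1
    obtain ⟨r, hr⟩ := Nat.exists_eq_add_of_le hp2
    subst hr
    simp only [show 2 + r - 1 = r + 1 by omega, show (2 + r) ^ 2 - (2 + r) = r * r + 3 * r + 2 by ring_nf; omega,
      show r * r + 3 * r + 2 - 1 = r * r + 3 * r + 1 by omega] at hcb hA1 hA2'
    set S1 := ∑ q ∈ In.erase 1, (delta A (Quotient.out q)).range.index
    have hS1 : S1 ≤ (r + 1) * ((2 + r) * D.index) :=
      Nat.le_of_mul_le_mul_left (hA1.trans_eq (show _ = (2 + r) * ((r + 1) * ((2 + r) * D.index)) by ring)) (by omega)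
    nlinarith
  -- the kernels
  have hD2 : Nat.card D = p ^ 2 := hk
  have hker : ∀ t, (QuotientGroup.mk' A t) ∉ Subgroup.zpowers q₀ → (delta A s).ker = (delta A t).ker := by
    intro t ht
    have hst : (QuotientGroup.mk' A (s * t)) ∉ Subgroup.zpowers q₀ := by
      rw [map_mul, QuotientGroup.mk'_apply, hsq, Subgroup.mul_mem_cancel_left _ (Subgroup.mem_zpowers q₀)]
      exact ht
    have hle : (delta A s).ker ≤ (delta A t).ker := by
      intro a ha
      rw [MonoidHom.mem_ker] at ha ⊢
      by_contra hta
      have h1 : delta A (s * t) a = MulAut.conjNormal (H := A) s (delta A t a) := by rw [delta_mul, ha, one_mul]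
      have h2 : delta A (s * t) a ∈ (delta A t).range := h1 ▸ hinv1 t s ⟨_, ⟨a, rfl⟩, rfl⟩
      have hne1 : delta A (s * t) a ≠ 1 := fun h => hta (by
        rw [h1] at h
        exact (MulEquiv.map_eq_one_iff _).1 h)
      have heq : (delta A (s * t)).range = (delta A t).range := by
        haveI hpr : Fact (Nat.card ((delta A t).range ⊓ (delta A (s * t)).range : Subgroup A) = p) := ⟨by
          refine ((Nat.dvd_prime hp.out).1 (hall t ht ▸ Subgroup.card_dvd_of_le inf_le_left)).resolve_left fun h => ?_
          exact hne1 (Subgroup.mem_bot.1 (Subgroup.card_eq_one.1 h ▸ Subgroup.mem_inf.2 ⟨h2, ⟨a, rfl⟩⟩))⟩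
        have e1 := Subgroup.eq_of_le_of_card_ge (inf_le_left : (delta A t).range ⊓ (delta A (s * t)).range ≤ _)
          (by rw [hall t ht, hpr.out])
        have e2 := Subgroup.eq_of_le_of_card_ge (inf_le_right : (delta A t).range ⊓ (delta A (s * t)).range ≤ _)
          (by rw [hall _ hst, hpr.out])
        exact e2.symm.trans e1
      have hDt : D ≤ (delta A t).range := by
        refine hspan t _ ?_ le_rfl (hinv1 t) (Or.inl ht)
        rintro _ ⟨x, rfl⟩
        have h := delta_mul A s t x
        rw [eq_mul_inv_iff_mul_eq.2 h.symm]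
        exact mul_mem (heq.le ⟨x, rfl⟩) (inv_mem (hinv1 t s ⟨_, ⟨x, rfl⟩, rfl⟩))
      have := Subgroup.card_le_of_le hDt
      rw [hD2, hall t ht] at this
      nlinarith
    refine Subgroup.eq_of_le_of_card_ge hle (le_of_eq ?_)
    have h1 := (delta A s).ker.card_mul_index
    have h2 := (delta A t).ker.card_mul_index
    rw [Subgroup.index_ker, hs] at h1
    rw [Subgroup.index_ker, hall t ht] at h2
    exact Nat.eq_of_mul_eq_mul_right hp.out.pos (h2.trans h1.symm)
  obtain ⟨u, hu⟩ : ∃ u : G, (QuotientGroup.mk' A u) ∉ Subgroup.zpowers q₀ := by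
    by_contra h
    push Not at h
    have : Subgroup.zpowers q₀ = ⊤ := top_unique fun x _ => by
      obtain ⟨g, rfl⟩ := QuotientGroup.mk'_surjective A x
      exact h g
    rw [this, Subgroup.card_top, hQ] at hZs
    nlinarith
  have hcent : (delta A s).ker.map A.subtype ≤ Subgroup.center G := by
    rintro _ ⟨a, ha, rfl⟩
    rw [Subgroup.mem_center_iff]
    intro g
    have hg : g ∈ (Subgroup.centralizer ({(a : G)} : Set G)) := by
      set C := Subgroup.centralizer ({(a : G)} : Set G)
      have hs' : s ∈ C := Subgroup.mem_centralizer_singleton_iff.2 ((delta_eq_one_iff A s a).1 ha)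
      have hout' : ∀ t, (QuotientGroup.mk' A t) ∉ Subgroup.zpowers q₀ → t ∈ C := fun t ht =>
        Subgroup.mem_centralizer_singleton_iff.2 ((delta_eq_one_iff A t a).1 (by
          have := hker t ht ▸ ha
          exact this))
      by_cases hg : (QuotientGroup.mk' A g) ∈ Subgroup.zpowers q₀
      · rw [show g = (g * u) * u⁻¹ by group]
        refine mul_mem (hout' _ ?_) (inv_mem (hout' u hu))
        rw [map_mul, Subgroup.mul_mem_cancel_left _ hg]
        exact hu
      · exact hout' g hg
    exact Subgroup.mem_centralizer_singleton_iff.1 hg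
  have hidxC : ((delta A s).ker.map A.subtype).index = p ^ 3 := by
    rw [Subgroup.index_map_subtype, Subgroup.index_ker, hs, hidx]; ring
  rcases exists_abelian_index_of_center_index_dvd hG (hidxC ▸ Subgroup.index_dvd_of_le hcent) with h | h | h
  · exact hnc h
  · exact hnoA h
  · exact hnZ h

end

end CfsgLib.DegreeOneP
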